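import Cfsg.Agent.CycTori.RootFun
import Cfsg.Agent.ChevGrp.Unimodular
import Mathlib.RingTheory.Polynomial.Cyclotomic.Expand

/-! Highest roots of `F₄`, `E₈` and the cyclotomic values used for their cyclic tori (owner: helper87). -/

set_option autoImplicit false

namespace Cfsg.Agent.CycTori

open Cfsg.Lie Cfsg.Agent.ChevGrp Cfsg.Agent.LieTori Polynomial

def invF4 : Matrix (Fin chevF4.rank) (Fin chevF4.rank) ℤ :=
  (![![2, 3, 4, 2], ![3, 6, 8, 4], ![2, 4, 6, 3], ![1, 2, 3, 2]] : Fin 4 → Fin 4 → ℤ)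

def invE8 : Matrix (Fin chevE8.rank) (Fin chevE8.rank) ℤ :=
  (![![4, 5, 7, 10, 8, 6, 4, 2],
    ![5, 8, 10, 15, 12, 9, 6, 3],
    ![7, 10, 14, 20, 16, 12, 8, 4],
    ![10, 15, 20, 30, 24, 18, 12, 6],
    ![8, 12, 16, 24, 20, 15, 10, 5],
    ![6, 9, 12, 18, 15, 12, 8, 4],
    ![4, 6, 8, 12, 10, 8, 6, 3],
    ![2, 3, 4, 6, 5, 4, 3, 2]] : Fin 8 → Fin 8 → ℤ)

theorem topF4 : TopData chevF4 invF4 47 where
  mul_inv := by decide +kernel
  inv_mul := by decide +kernel
  top_lt := by decide +kernel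
  two_le := by decide +kernel
  le_six := by decide +kernel
  le_top := by decide +kernel
  sign := by decide +kernel

theorem topE8 : TopData chevE8 invE8 239 where
  mul_inv := by decide +kernel
  inv_mul := by decide +kernel
  top_lt := by decide +kernel
  two_le := by decide +kernel
  le_six := by decide +kernel
  le_top := by decide +kernel
  sign := by decide +kernel

theorem eval_cyclotomic_eight (a : ℤ) : (cyclotomic 8 ℤ).eval a = a ^ 4 + 1 := by
  rw [show (8 : ℕ) = 2 ^ (2 + 1) by norm_num, cyclotomic_prime_pow_eq_geom_sum Nat.prime_two]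
  simp [Finset.sum_range_succ]
  ring

theorem eval_cyclotomic_fifteen (a : ℤ) :
    (cyclotomic 15 ℤ).eval a = a ^ 8 - a ^ 7 + a ^ 5 - a ^ 4 + a ^ 3 - a + 1 := by
  have h := congrArg (fun p : ℤ[X] => p.eval a)
    (cyclotomic_expand_eq_cyclotomic_mul (p := 5) Nat.prime_five (n := 3) (by norm_num) ℤ)
  simp only [eval_mul, expand_eval, cyclotomic_three, eval_add, eval_pow, eval_X, eval_one] at h
  norm_num at h
  refine mul_right_cancel₀ (b := a ^ 2 + a + 1) (by nlinarith [sq_nonneg (2 * a + 1)]) ?_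
  rw [← h]
  ring

theorem eval_cyclotomic_thirty (a : ℤ) :
    (cyclotomic 30 ℤ).eval a = a ^ 8 + a ^ 7 - a ^ 5 - a ^ 4 - a ^ 3 + a + 1 := by
  have h := congrArg (fun p : ℤ[X] => p.eval a)
    (cyclotomic_expand_eq_cyclotomic_mul (p := 2) Nat.prime_two (n := 15) (by norm_num) ℤ)
  simp only [eval_mul, expand_eval, eval_cyclotomic_fifteen] at h
  norm_num at h
  refine mul_right_cancel₀ (b := a ^ 8 - a ^ 7 + a ^ 5 - a ^ 4 + a ^ 3 - a + 1) (fun h0 => ?_) ?_
  · have h1 : (a ^ 8 - a ^ 7 + a ^ 5 - a ^ 4 + a ^ 3 - a + 1) * (a ^ 2 + a + 1) = a ^ 10 + a ^ 5 + 1 := by ring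
    rw [h0, zero_mul] at h1
    nlinarith [sq_nonneg (2 * a ^ 5 + 1)]
  rw [← h]
  ring

end Cfsg.Agent.CycTori
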