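import Cfsg.Agent.CycTori.Main
import Cfsg.Agent.CycTori.ESeven

/-!
Two commuting elements of prime orders prime to the Weyl group lie, over a large field, in one split torus, and
one Weyl element acts on both with eigenvalue `q` (owner: helper87).
-/

set_option autoImplicit false
set_option linter.style.haveILetI false

namespace Cfsg.Agent.CycTori

open Cfsg.Lie Cfsg.Agent.ChevGrp Cfsg.Agent.LieTori Polynomial
open Matrix hiding col
open scoped MatrixGroups

universe u

theorem exists_sylow_torus {D : ChevalleyDatum} {L : List ℕ} (hLlen : L.length = D.rank)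
    {K : Type} [Field K] [Fintype K] {len : ℕ → ℕ} (hS : Rules D K) (hR : RootTable D len)
    (hdet : (cartanMat D).det = ((1 : ℕ) : ℤ)) (hO : OrderFormula D L 1 K)
    {r : ℕ} [Fact r.Prime] (hr2 : r ≠ 2) (hLr : ∀ e ∈ L, ¬ r ∣ e) (hone : (Nat.card K : ZMod r) = 1) :
    ∃ T : Subgroup ↥(D.group K), Nat.card T = r ^ (Nat.card ↥(D.group K)).factorization r ∧
      ∀ t ∈ T, ((t : ↥(D.group K)) : GL D.Idx K) ∈ (glSys hS).Hbar := by
  classical
  have hr : r.Prime := Fact.out
  have hK1 : 1 < Nat.card K := Finite.one_lt_card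
  have hrQ : ¬ r ∣ Nat.card K := fun hd => by
    rw [(ZMod.natCast_eq_zero_iff _ r).2 hd] at hone
    exact zero_ne_one hone
  have hdvd : r ∣ Nat.card K - 1 := by
    rw [← ZMod.natCast_eq_zero_iff, Nat.cast_sub hK1.le, hone, Nat.cast_one, sub_self]
  set v := padicValNat r (Nat.card K - 1) with hv
  have hv0 : v ≠ 0 := by
    have := one_le_padicValNat_of_dvd (p := r) (Nat.sub_ne_zero_of_lt hK1) hdvd
    omega
  have hvK : padicValNat r (Nat.card ↥(D.group K)) = D.rank * v := by
    rw [padicValNat_group hO hr2 hrQ hr.not_dvd_one hLr, hone, orderOf_one, cyclotomic_one, ← hLlen]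
    simp only [one_dvd, decide_true, List.filter_true, eval_sub, eval_X, eval_one]
    rw [show ((Nat.card K : ℕ) : ℤ) - 1 = ((Nat.card K - 1 : ℕ) : ℤ) by
      rw [Nat.cast_sub hK1.le]; rfl, Int.natAbs_natCast]
  have hm : r ^ v ∣ Nat.card K - 1 := pow_padicValNat_dvd
  obtain ⟨f, hf⟩ := SylowLarge.exists_zmod_hom_units hm
  have hM : (glSys hS).HMul := glSys_HMul hS hR
  have hHG : (glSys hS).Hbar ≤ (glSys hS).Gbar := by
    rw [(glSys hS).Gbar_eq hR hS]; exact le_sup_of_le_left (glSys hS).Hbar_le_Bbar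
  have htauH : ∀ c, (glSys hS).tau hS hR hM c ∈ (glSys hS).Hbar := fun c => by
    rw [← (glSys hS).tau_range hS hR hM]; exact ⟨c, rfl⟩
  let φ : (Fin D.rank → Multiplicative (ZMod (r ^ v))) →* ↥(D.group K) :=
    (((glSys hS).tau hS hR hM).comp (f.compLeft (Fin D.rank))).codRestrict _ fun y =>
      group_eq hS ▸ hHG (htauH (f.compLeft (Fin D.rank) y))
  have hφ : Function.Injective φ := fun a b e =>
    tau_torus_injective hS hR hdet hr.not_dvd_one hf (congrArg Subtype.val e)
  refine ⟨φ.range, ?_, ?_⟩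
  · rw [← Nat.card_congr (MonoidHom.ofInjective hφ).toEquiv, SylowLarge.card_pi_zmod,
      Nat.factorization_def _ hr, hvK]
  · rintro _ ⟨a, rfl⟩
    exact htauH (f.compLeft (Fin D.rank) a)

/-- The main statement. -/
theorem exists_word_pair {D : ChevalleyDatum}
    (hD : D ∈ [chevG2, chevB2, chevD4, chevF4, chevE6, chevE7, chevE8])
    (hU : ∃ B : Fin D.rank → Fin D.rank → ℤ, ∀ i j : Fin D.rank,
      ∑ k : Fin D.rank, D.cartan j (D.simple k) * B k i = if j = i then 1 else 0)
    (hdet : (cartanMat D).det = ((1 : ℕ) : ℤ)) {L : List ℕ} (hLlen : L.length = D.rank)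
    {F : Type u} [Field F] [Fintype F] {q : ℕ} (hq : Fintype.card F = q)
    (hK : ∀ (K : Type) [Field K] [Fintype K], OrderFormula D L 1 K)
    {r s : ℕ} [Fact r.Prime] [Fact s.Prime] (hr2 : r ≠ 2) (hs2 : s ≠ 2)
    (hLr : ∀ e ∈ L, ¬ r ∣ e) (hLs : ∀ e ∈ L, ¬ s ∣ e)
    {h : ℕ} (hh0 : h ≠ 0) (hqr : (q : ZMod r) ^ h = 1) (hqs : (q : ZMod s) ^ h = 1)
    (y z : ↥(D.group F)) (hy : orderOf y = r) (hz : orderOf z = s) (hyz : Commute y z) :
    ∃ (w : List (Fin D.rank)) (a : Fin D.rank → ZMod r) (b : Fin D.rank → ZMod s),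
      a ∈ eigMod (wMat (cartanMat D) w) (q : ZMod r) ∧ a ≠ 0 ∧
        b ∈ eigMod (wMat (cartanMat D) w) (q : ZMod s) ∧ b ≠ 0 := by
  classical
  have hcardF : Nat.card F = q := by rw [Nat.card_eq_fintype_card, hq]
  obtain ⟨p, hp⟩ := CharP.exists F
  haveI := Fact.mk (CharP.char_is_prime F p)
  haveI : NeZero h := ⟨hh0⟩
  let K := FiniteField.Extension F p h
  haveI : Fintype K := Fintype.ofFinite K
  have hcardK : Nat.card K = q ^ h := by rw [FiniteField.natCard_extension, hcardF]
  have honer : (Nat.card K : ZMod r) = 1 := by rw [hcardK, Nat.cast_pow, hqr]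
  have hones : (Nat.card K : ZMod s) = 1 := by rw [hcardK, Nat.cast_pow, hqs]
  have hS : Rules D K := Chev.rules_of_mem K hD
  obtain ⟨len, hR⟩ := hS.root
  let S := glSys hS
  have hM : S.HMul := glSys_HMul hS hR
  have hGK : D.group K = S.Gbar := group_eq hS
  have hdet0 : (cartanMat D).det ≠ 0 := by rw [hdet]; norm_num
  have htauH : ∀ c, S.tau hS hR hM c ∈ S.Hbar := fun c => by
    rw [← S.tau_range hS hR hM]; exact ⟨c, rfl⟩
  obtain ⟨Tr, hTr, hTrH⟩ := exists_sylow_torus hLlen hS hR hdet (hK K) hr2 hLr honer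
  obtain ⟨Ts, hTs, hTsH⟩ := exists_sylow_torus hLlen hS hR hdet (hK K) hs2 hLs hones
  let e : GL D.Idx F →* GL D.Idx K := Matrix.GeneralLinearGroup.map (algebraMap F K)
  have he : Function.Injective e := glMap_injective D (algebraMap F K)
  let ψ : ↥(D.group F) →* ↥(D.group K) :=
    (e.comp (D.group F).subtype).codRestrict _ fun z => map_mem_group (algebraMap F K) z.2
  have hψ : Function.Injective ψ := fun a b hab => Subtype.ext (he (congrArg Subtype.val hab))
  -- move `y` into the torus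
  have hPr : IsPGroup r (Subgroup.zpowers (ψ y)) :=
    IsPGroup.of_card (n := 1) (by rw [Nat.card_zpowers, orderOf_injective ψ hψ, hy, pow_one])
  obtain ⟨P, hP⟩ := hPr.exists_le_sylow
  obtain ⟨γ, hγ⟩ := MulAction.exists_smul_eq ↥(D.group K) P (Sylow.ofCard Tr hTr)
  set y' : ↥(D.group K) := MulAut.conj γ (ψ y) with hy'def
  have hy'T : y' ∈ Tr := by
    have h1 : y' ∈ ((γ • P : Sylow r ↥(D.group K)) : Subgroup ↥(D.group K)) := by
      rw [hy'def, Sylow.smul_def, Sylow.pointwise_smul_def, ← MulAut.smul_def]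
      exact Subgroup.smul_mem_pointwise_smul _ _ _ (hP (Subgroup.mem_zpowers _))
    rw [hγ] at h1
    exact h1
  -- move `z` into the torus inside the centralizer of the image of `y`
  let C : Subgroup ↥(D.group K) := Subgroup.centralizer {y'}
  have hTsC : Ts ≤ C := fun t ht => Subgroup.mem_centralizer_iff.2 (by
    rintro _ rfl
    exact Subtype.ext (S.Hbar_comm hS hR hM _ (hTrH _ hy'T) _ (hTsH _ ht)))
  have hCcard : Nat.card (Ts.subgroupOf C) = s ^ (Nat.card C).factorization s := by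
    rw [Nat.card_congr (Subgroup.subgroupOfEquivOfLe hTsC).toEquiv, hTs]
    refine congrArg _ (le_antisymm ?_ ?_)
    · rw [← (Fact.out : s.Prime).pow_dvd_iff_le_factorization Nat.card_pos.ne', ← hTs]
      exact Subgroup.card_dvd_of_le hTsC
    · exact (Nat.factorization_le_iff_dvd Nat.card_pos.ne' Nat.card_pos.ne').2
        (Subgroup.card_subgroup_dvd_card C) s
  let z₁ : C := ⟨MulAut.conj γ (ψ z), Subgroup.mem_centralizer_iff.2 (by
    rintro _ rfl
    rw [hy'def, ← map_mul, ← map_mul, ← map_mul, ← map_mul, hyz.eq])⟩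
  have hz₁o : orderOf z₁ = s := by
    rw [← Subgroup.orderOf_coe]
    show orderOf (MulAut.conj γ (ψ z)) = s
    rw [MulEquiv.orderOf_eq, orderOf_injective ψ hψ, hz]
  obtain ⟨R, hR'⟩ := (IsPGroup.of_card (n := 1) (G := Subgroup.zpowers z₁) (p := s)
    (by rw [Nat.card_zpowers, hz₁o, pow_one])).exists_le_sylow
  obtain ⟨δ, hδ⟩ := MulAction.exists_smul_eq C R (Sylow.ofCard (Ts.subgroupOf C) hCcard)
  have hz'T : ((MulAut.conj δ z₁ : C) : ↥(D.group K)) ∈ Ts := by
    have h1 : MulAut.conj δ z₁ ∈ ((δ • R : Sylow s C) : Subgroup C) := by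
      rw [Sylow.smul_def, Sylow.pointwise_smul_def, ← MulAut.smul_def]
      exact Subgroup.smul_mem_pointwise_smul _ _ _ (hR' (Subgroup.mem_zpowers _))
    rw [hδ] at h1
    exact h1
  set ε : ↥(D.group K) := (δ : ↥(D.group K)) * γ with hε
  have hyH : (MulAut.conj ε (ψ y) : GL D.Idx K) ∈ S.Hbar := by
    have h1 : MulAut.conj ε (ψ y) = y' := by
      rw [hε, map_mul, MulAut.mul_apply, ← hy'def, MulAut.conj_apply, ← Subgroup.mem_centralizer_iff.1 δ.2 y' rfl,
        mul_inv_cancel_right]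
    rw [h1]
    exact hTrH _ hy'T
  have hzH : (MulAut.conj ε (ψ z) : GL D.Idx K) ∈ S.Hbar := by
    rw [hε, map_mul, MulAut.mul_apply]
    exact hTsH _ hz'T
  -- the Frobenius map
  let σ : K →+* K := (FiniteField.Extension.frob F p h).toAlgHom.toRingHom
  have hσ : ∀ a : K, σ a = a ^ q := fun a => by
    show FiniteField.Extension.frob F p h a = _
    rw [FiniteField.Extension.frob_apply, hcardF]
  let fr : GL D.Idx K →* GL D.Idx K := Matrix.GeneralLinearGroup.map σ
  have hfix : ∀ a : GL D.Idx F, fr (e a) = e a := fun a => by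
    ext i j
    exact (FiniteField.Extension.frob F p h).commutes _
  set Qe : GL D.Idx K := fr (ε : GL D.Idx K) * (ε : GL D.Idx K)⁻¹ with hQe
  have hQG : Qe ∈ S.Gbar := by
    rw [← hGK]
    exact mul_mem (map_mem_group σ ε.2) (inv_mem ε.2)
  obtain ⟨b, hb, w, -, v, hv, hQeq⟩ := S.mem_NF hS hR hQG
  have hfrob : ∀ (x : ↥(D.group F)) (c : Fin D.rank → Kˣ),
      (MulAut.conj ε (ψ x) : GL D.Idx K) = S.tau hS hR hM c →
      S.nW w * S.tau hS hR hM c * (S.nW w)⁻¹ = S.tau hS hR hM c ^ q := by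
    intro x c hc
    have h1 : Qe * S.tau hS hR hM c * Qe⁻¹ = S.tau hS hR hM c ^ q := by
      rw [← LieTori.map_tau hS hR σ hσ c, ← hc]
      show Qe * ((ε : GL D.Idx K) * e (x : GL D.Idx F) * (ε : GL D.Idx K)⁻¹) * Qe⁻¹ =
        fr ((ε : GL D.Idx K) * e (x : GL D.Idx F) * (ε : GL D.Idx K)⁻¹)
      rw [map_mul, map_mul, map_inv, hfix, hQe]
      group
    refine conj_nW_eq S hS hR hM hb hv (htauH c) (pow_mem (htauH c) q) ?_
    rw [← hQeq]
    exact mul_inv_eq_iff_eq_mul.1 h1
  have key : ∀ (t : ℕ) [Fact t.Prime], (Nat.card K : ZMod t) = 1 → ∀ x : ↥(D.group F), orderOf x = t →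
      (MulAut.conj ε (ψ x) : GL D.Idx K) ∈ S.Hbar →
      ∃ a : Fin D.rank → ZMod t, a ∈ eigMod (wMat (cartanMat D) w.reverse) (q : ZMod t) ∧ a ≠ 0 := by
    intro t ht hone x hx hxH
    obtain ⟨c, hc⟩ := (S.tau_range hS hR hM).ge hxH
    have hdvd : t ∣ Nat.card K - 1 := by
      rw [← ZMod.natCast_eq_zero_iff, Nat.cast_sub (Finite.one_lt_card).le, hone, Nat.cast_one, sub_self]
    obtain ⟨g, hg⟩ := SylowLarge.exists_zmod_hom_units (K := K) (M := t) hdvd
    have hroot : ∀ u : Kˣ, u ^ t = 1 → ∃ m, g m = u := fun u hu => by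
      have h2 : g.range = (powMonoidHom t : Kˣ →* Kˣ).ker := by
        refine Subgroup.eq_of_le_of_card_ge ?_ (le_of_eq ?_)
        · rintro _ ⟨m, rfl⟩
          rw [MonoidHom.mem_ker, powMonoidHom_apply, ← map_pow, ← map_one g]
          congr 1
          exact Multiplicative.toAdd.injective (by simp)
        · rw [IsCyclic.card_powMonoidHom_ker, Nat.card_units, Nat.gcd_eq_right hdvd,
            ← Nat.card_congr (MonoidHom.ofInjective hg).toEquiv, Nat.card_congr Multiplicative.toAdd, Nat.card_zmod]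
      exact MonoidHom.mem_range.1 (h2.ge (MonoidHom.mem_ker.2 hu))
    have hord : orderOf (S.tau hS hR hM c) = t := by
      rw [hc, ← hx, ← orderOf_injective ψ hψ x, ← MulEquiv.orderOf_eq (MulAut.conj ε) (ψ x), Subgroup.orderOf_coe]
    have htinj : Function.Injective (S.tau hS hR hM) := by
      rw [injective_iff_map_eq_one]
      intro d hd
      have h1 := (S.θ_tau_eq_one_iff hS hR hM d).1 (congrArg S.θ hd)
      rwa [Chev.FieldFix.rootKer_eq_bot hU, Subgroup.mem_bot] at h1
    have hct : ∀ j, c j ^ t = 1 := fun j => by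
      have h1 : c ^ t = 1 := htinj (by rw [map_pow, ← hord, pow_orderOf_eq_one, map_one])
      exact congrFun h1 j
    choose m hm using fun j => hroot _ (hct j)
    set a : Fin D.rank → ZMod t := fun j => Multiplicative.toAdd (m j) with ha
    have hca : c = fun j => g (Multiplicative.ofAdd (a j)) := funext fun j => (hm j).symm
    refine ⟨a, eigMod_of_valMod hR (by rw [hdet, Nat.cast_one, Int.cast_one]; exact one_ne_zero) fun i hi => ?_, fun h0 => ?_⟩
    · have h1 := valMod_of_conj S hS hR hM g hg a (q := q) (by rw [← hca]; exact hfrob x c hc.symm)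
        (hR.act_lt w.reverse hi)
      rw [hR.act_act_reverse w hi] at h1
      rw [h1]
    · have h1 : c = 1 := by
        rw [hca, h0]
        funext j
        simp
      rw [h1, map_one, orderOf_one] at hord
      exact ht.out.one_lt.ne hord
  obtain ⟨a, ha, ha0⟩ := key r honer y hy hyH
  obtain ⟨c, hc, hc0⟩ := key s hones z hz hzH
  exact ⟨w.reverse, a, c, ha, ha0, hc, hc0⟩

end Cfsg.Agent.CycTori
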