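import Cfsg.Agent.CycTori.LangElem
import Cfsg.Agent.CycTori.FFourWeyl
import Cfsg.Agent.CycTori.PairTorus
import Cfsg.Agent.CycTori.Data
import Cfsg.Agent.CycTori.ESevenMat
import Cfsg.Agent.LieTori.SylowInst

/-!
Adjacency in the prime graph of `F₄(q)`, `q` even (owner: helper87).
-/

set_option autoImplicit false
set_option linter.style.haveILetI false

namespace Cfsg.Agent.CycTori.F4Graph

open Cfsg.Lie Cfsg.Agent.ChevGrp Matrix

theorem mem_list : chevF4 ∈ [chevG2, chevB2, chevD4, chevF4, chevE6, chevE7, chevE8] := by simp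

theorem rank4 : chevF4.rank = 4 := rfl

theorem sq_root {K : Type*} [Field K] {x : K} {e : ℕ} (h : orderOf x = e) :
    (e = 1 → x = 1) ∧ (e = 2 → x = -1) ∧ (e = 3 → x ^ 2 + x + 1 = 0) ∧ (e = 4 → x ^ 2 + 1 = 0) ∧
      (e = 6 → x ^ 2 - x + 1 = 0) ∧ (e = 8 → x ^ 4 + 1 = 0) ∧ (e = 12 → x ^ 4 - x ^ 2 + 1 = 0) := by
  have hne : ∀ m, 0 < m → m < e → x ^ m ≠ 1 := fun m hm hlt hx => by
    have := Nat.le_of_dvd hm (orderOf_dvd_of_pow_eq_one hx)
    omega
  have hp : x ^ e = 1 := h ▸ pow_orderOf_eq_one x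
  refine ⟨fun h1 => ?_, fun h1 => ?_, fun h1 => ?_, fun h1 => ?_, fun h1 => ?_, fun h1 => ?_, fun h1 => ?_⟩ <;>
    subst h1
  · simpa using hp
  · refine (sq_eq_one_iff.1 hp).resolve_left fun h2 => hne 1 one_pos (by norm_num) (by rw [pow_one, h2])
  · have h2 : x - 1 ≠ 0 := sub_ne_zero.2 fun h2 => hne 1 one_pos (by norm_num) (by rw [pow_one, h2])
    exact (mul_eq_zero.1 (show (x - 1) * (x ^ 2 + x + 1) = 0 by linear_combination hp)).resolve_left h2
  · have h2 : x ^ 2 - 1 ≠ 0 := sub_ne_zero.2 (hne 2 (by norm_num) (by norm_num))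
    exact (mul_eq_zero.1 (show (x ^ 2 - 1) * (x ^ 2 + 1) = 0 by linear_combination hp)).resolve_left h2
  · have h2 : x ^ 3 - 1 ≠ 0 := sub_ne_zero.2 (hne 3 (by norm_num) (by norm_num))
    have h4 : x + 1 ≠ 0 := fun h4 => hne 2 (by norm_num) (by norm_num) (by linear_combination (x - 1) * h4)
    exact (mul_eq_zero.1 (show ((x ^ 3 - 1) * (x + 1)) * (x ^ 2 - x + 1) = 0 by linear_combination hp)).resolve_left
      (mul_ne_zero h2 h4)
  · have h2 : x ^ 4 - 1 ≠ 0 := sub_ne_zero.2 (hne 4 (by norm_num) (by norm_num))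
    exact (mul_eq_zero.1 (show (x ^ 4 - 1) * (x ^ 4 + 1) = 0 by linear_combination hp)).resolve_left h2
  · have h2 : x ^ 6 - 1 ≠ 0 := sub_ne_zero.2 (hne 6 (by norm_num) (by norm_num))
    have h4 : x ^ 2 + 1 ≠ 0 := fun h4 => hne 4 (by norm_num) (by norm_num) (by linear_combination (x ^ 2 - 1) * h4)
    exact (mul_eq_zero.1 (show ((x ^ 6 - 1) * (x ^ 2 + 1)) * (x ^ 4 - x ^ 2 + 1) = 0 by
      linear_combination hp)).resolve_left (mul_ne_zero h2 h4)

theorem det_word (q : ℕ) (m : F4W.M4) {w : List (Fin chevF4.rank)}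
    (h : ∀ i j : Fin 4, parMat chevF4 w (Fin.cast rank4.symm i) (Fin.cast rank4.symm j) = F4W.M4.toMat m i j) :
    ((q : ℤ) • parMat chevF4 w - 1).det = F4W.M4.det4
      ⟨q * m.a00 - 1, q * m.a01, q * m.a02, q * m.a03, q * m.a10, q * m.a11 - 1, q * m.a12, q * m.a13,
       q * m.a20, q * m.a21, q * m.a22 - 1, q * m.a23, q * m.a30, q * m.a31, q * m.a32, q * m.a33 - 1⟩ := by
  rw [show parMat chevF4 w = (F4W.M4.toMat m : Matrix (Fin 4) (Fin 4) ℤ) from Matrix.ext h]
  show Matrix.det (n := Fin 4) ((q : ℤ) • F4W.M4.toMat m - (1 : Matrix (Fin 4) (Fin 4) ℤ)) = _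
  rw [← F4W.M4.det_toMat]
  congr 1
  ext i j
  fin_cases i <;> fin_cases j <;> simp [F4W.M4.toMat, Matrix.sub_apply, Matrix.one_apply]

/-- The words of the tori. -/
def wA : List (Fin chevF4.rank) := ([0, 1, 3] : List (Fin 4))
/-- The words of the tori. -/
def wB : List (Fin chevF4.rank) := ([1, 2, 3] : List (Fin 4))
/-- The words of the tori. -/
def wC : List (Fin chevF4.rank) := ([1, 2, 1, 2, 3] : List (Fin 4))
/-- The words of the tori. -/
def wT : List (Fin chevF4.rank) := ([2, 3] : List (Fin 4))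
/-- The words of the tori. -/
def wE : List (Fin chevF4.rank) := ([0, 1, 2, 1, 2, 3] : List (Fin 4))
/-- The words of the tori. -/
def wH : List (Fin chevF4.rank) := ([0, 1, 2, 3] : List (Fin 4))

theorem detA (q : ℕ) : ((q : ℤ) • parMat chevF4 wA - 1).det =
    -((q : ℤ) - 1) * ((q : ℤ) + 1) * ((q : ℤ) ^ 2 + q + 1) := by
  rw [det_word q ⟨0, -1, 1, 0, 1, -1, 1, 0, 0, 0, 1, 0, 0, 0, 1, -1⟩ (fun i j => by fin_cases i <;> fin_cases j <;> decide +kernel), F4W.M4.det4]
  ring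

theorem detB (q : ℕ) : ((q : ℤ) • parMat chevF4 wB - 1).det =
    -((q : ℤ) - 1) * ((q : ℤ) + 1) * ((q : ℤ) ^ 2 - q + 1) := by
  rw [det_word q ⟨1, 0, 0, 0, 1, 1, 0, -1, 0, 2, 0, -1, 0, 0, 1, -1⟩ (fun i j => by fin_cases i <;> fin_cases j <;> decide +kernel), F4W.M4.det4]
  ring

theorem detC (q : ℕ) : ((q : ℤ) • parMat chevF4 wC - 1).det =
    -((q : ℤ) - 1) * ((q : ℤ) + 1) * ((q : ℤ) ^ 2 + 1) := by
  rw [det_word q ⟨1, 0, 0, 0, 2, -1, 1, -1, 2, 0, 1, -2, 0, 0, 1, -1⟩ (fun i j => by fin_cases i <;> fin_cases j <;> decide +kernel), F4W.M4.det4]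
  ring

theorem detT (q : ℕ) : ((q : ℤ) • parMat chevF4 wT - 1).det =
    ((q : ℤ) - 1) ^ 2 * ((q : ℤ) ^ 2 + q + 1) := by
  rw [det_word q ⟨1, 0, 0, 0, 0, 1, 0, 0, 0, 2, 0, -1, 0, 0, 1, -1⟩ (fun i j => by fin_cases i <;> fin_cases j <;> decide +kernel), F4W.M4.det4]
  ring

theorem detE (q : ℕ) : ((q : ℤ) • parMat chevF4 wE - 1).det = (q : ℤ) ^ 4 + 1 := by
  rw [det_word q ⟨1, -1, 1, -1, 2, -1, 1, -1, 2, 0, 1, -2, 0, 0, 1, -1⟩ (fun i j => by fin_cases i <;> fin_cases j <;> decide +kernel), F4W.M4.det4]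
  ring

theorem detH (q : ℕ) : ((q : ℤ) • parMat chevF4 wH - 1).det = (q : ℤ) ^ 4 - (q : ℤ) ^ 2 + 1 := by
  rw [det_word q ⟨0, 1, 0, -1, 1, 1, 0, -1, 0, 2, 0, -1, 0, 0, 1, -1⟩ (fun i j => by fin_cases i <;> fin_cases j <;> decide +kernel), F4W.M4.det4]
  ring

section

variable {F : Type*} [Field F] [Fintype F] {q : ℕ}

/-- Two odd primes whose pair of orders is not excluded are joined. -/
theorem exists_odd_pair (hq : Fintype.card F = q) {r s : ℕ} [Fact r.Prime] [Fact s.Prime] (hrs : r ≠ s)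
    (hr : ¬ r ∣ q) (hs : ¬ s ∣ q) {k l : ℕ} (hk : orderOf (q : ZMod r) = k) (hl : orderOf (q : ZMod s) = l)
    (h : ((k = 1 ∨ k = 2 ∨ k = 3) ∧ (l = 1 ∨ l = 2 ∨ l = 3)) ∨ ((k = 1 ∨ k = 2 ∨ k = 4) ∧ (l = 1 ∨ l = 2 ∨ l = 4)) ∨
      ((k = 1 ∨ k = 2 ∨ k = 6) ∧ (l = 1 ∨ l = 2 ∨ l = 6)) ∨ (k = 8 ∧ l = 8) ∨ (k = 12 ∧ l = 12)) :
    ∃ x : ↥(chevF4.group F), orderOf x = r * s := by
  obtain ⟨r1, r2, r3, r4, r6, r8, r12⟩ := sq_root hk
  obtain ⟨s1, s2, s3, s4, s6, s8, s12⟩ := sq_root hl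
  rcases h with ⟨ha, hb⟩ | ⟨ha, hb⟩ | ⟨ha, hb⟩ | ⟨ha, hb⟩ | ⟨ha, hb⟩
  · refine exists_orderOf_mul mem_list unimodular_F4 hq wA hrs hr hs ?_ ?_ <;> rw [detA] <;> push_cast
    · rcases ha with e | e | e
      · rw [r1 e]; ring
      · rw [r2 e]; ring
      · rw [r3 e, mul_zero]
    · rcases hb with e | e | e
      · rw [s1 e]; ring
      · rw [s2 e]; ring
      · rw [s3 e, mul_zero]
  · refine exists_orderOf_mul mem_list unimodular_F4 hq wC hrs hr hs ?_ ?_ <;> rw [detC] <;> push_cast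
    · rcases ha with e | e | e
      · rw [r1 e]; ring
      · rw [r2 e]; ring
      · rw [r4 e, mul_zero]
    · rcases hb with e | e | e
      · rw [s1 e]; ring
      · rw [s2 e]; ring
      · rw [s4 e, mul_zero]
  · refine exists_orderOf_mul mem_list unimodular_F4 hq wB hrs hr hs ?_ ?_ <;> rw [detB] <;> push_cast
    · rcases ha with e | e | e
      · rw [r1 e]; ring
      · rw [r2 e]; ring
      · rw [r6 e, mul_zero]
    · rcases hb with e | e | e
      · rw [s1 e]; ring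
      · rw [s2 e]; ring
      · rw [s6 e, mul_zero]
  · refine exists_orderOf_mul mem_list unimodular_F4 hq wE hrs hr hs ?_ ?_ <;> rw [detE] <;> push_cast
    exacts [r8 ha, s8 hb]
  · refine exists_orderOf_mul mem_list unimodular_F4 hq wH hrs hr hs ?_ ?_ <;> rw [detH] <;> push_cast
    exacts [r12 ha, s12 hb]

/-- A word fixing the highest root gives a vector killed by it. -/
theorem perp_of_fix {len : ℕ → ℕ} {D : ChevalleyDatum} (hR : RootTable D len) {w : List (Fin D.rank)} {θ : ℕ}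
    (hθ : θ < D.nroots) (hw : act D w.reverse θ = θ) {s : ℕ} [Fact s.Prime] (hq1 : (q : ZMod s) ≠ 1)
    {v : Fin D.rank → ZMod s} (hv : ((q : ℤ) • parMat D w).map (Int.cast : ℤ → ZMod s) *ᵥ v = v) :
    ∑ j, ((Lang.kap D θ j : ℤ) : ZMod s) * v j = 0 := by
  have hu : Lang.kap D θ ᵥ* parMat D w = Lang.kap D θ := by
    rw [parMat, Matrix.vecMul_transpose, ← Lang.kap_act hR _ hθ, hw]
  set u : Fin D.rank → ZMod s := fun j => ((Lang.kap D θ j : ℤ) : ZMod s) with hudef
  have h1 : u ᵥ* ((q : ℤ) • parMat D w).map (Int.cast : ℤ → ZMod s) = (q : ZMod s) • u := by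
    funext j
    have h2 := congrFun hu j
    simp only [Matrix.vecMul, dotProduct] at h2
    simp only [Matrix.vecMul, dotProduct, Matrix.map_apply, Matrix.smul_apply, smul_eq_mul, Int.cast_mul,
      Int.cast_natCast, Pi.smul_apply, hudef]
    rw [← h2, Int.cast_sum, Finset.mul_sum]
    refine Finset.sum_congr rfl fun i _ => ?_
    push_cast
    ring
  have h3 : u ⬝ᵥ v = (q : ZMod s) * (u ⬝ᵥ v) := by
    conv_lhs => rw [← hv, Matrix.dotProduct_mulVec, h1, smul_dotProduct, smul_eq_mul]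
  have h4 : ((q : ZMod s) - 1) * (u ⬝ᵥ v) = 0 := by linear_combination -h3
  exact (mul_eq_zero.1 h4).resolve_left (sub_ne_zero.2 hq1)

/-- Primes with small order of `q` are joined to `2`. -/
theorem exists_two_pair [CharP F 2] (hq : Fintype.card F = q) {s : ℕ} [Fact s.Prime] (hs2 : s ≠ 2) (hs : ¬ s ∣ q)
    {l : ℕ} (hl : orderOf (q : ZMod s) = l) (h : l = 1 ∨ l = 2 ∨ l = 3 ∨ l = 4 ∨ l = 6) :
    ∃ x : ↥(chevF4.group F), orderOf x = 2 * s := by
  have hR' : ∃ len, RootTable chevF4 len := (Cfsg.Agent.Chev.rules_of_mem F mem_list).root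
  obtain ⟨len, hR⟩ := hR'
  obtain ⟨s1, s2, s3, s4, s6, -, -⟩ := sq_root hl
  by_cases h1 : l = 1
  · refine exists_orderOf_two_mul mem_list unimodular_F4 hq [] (θ := chevF4.simple (0 : Fin 4))
      (by decide +kernel) (act_nil _ _) hs2 hs (v := Pi.single (⟨3, by decide⟩ : Fin chevF4.rank) 1)
      (by simp) ?_ ?_
    · rw [show parMat chevF4 [] = 1 from rfl.trans (Matrix.transpose_one)]
      rw [Matrix.mulVec_single_one]
      funext i
      show ((((q : ℤ) * (1 : Matrix (Fin chevF4.rank) (Fin chevF4.rank) ℤ) i ⟨3, by decide⟩) : ℤ) : ZMod s) = _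
      rw [Matrix.one_apply, Pi.single_apply]
      split_ifs <;> simp [s1 h1]
    · rw [Finset.sum_eq_single (⟨3, by decide⟩ : Fin chevF4.rank) (fun j _ hj => by simp [hj]) (by simp),
        show Lang.kap chevF4 (chevF4.simple (0 : Fin 4)) (⟨3, by decide⟩ : Fin chevF4.rank) = 0 by decide +kernel]
      simp
  have hq1 : (q : ZMod s) ≠ 1 := fun e => h1 (by rw [← hl, e, orderOf_one])
  have key : ∀ w : List (Fin chevF4.rank), act chevF4 w 3 = 3 → act chevF4 w.reverse 3 = 3 →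
      ((((q : ℤ) • parMat chevF4 w - 1).det : ℤ) : ZMod s) = 0 →
      ∃ x : ↥(chevF4.group F), orderOf x = 2 * s := fun w hw hw' hd => by
    obtain ⟨v, hv0, hv⟩ := exists_vec_of_det hd
    exact exists_orderOf_two_mul mem_list unimodular_F4 hq w (by decide +kernel : 3 < chevF4.nroots) hw hs2 hs hv0 hv
      (perp_of_fix hR (by decide +kernel) hw' hq1 hv)
  rcases h with e | e | e | e | e
  · exact absurd e h1
  · exact key wB (by decide +kernel) (by decide +kernel) (by rw [detB]; push_cast; rw [s2 e]; ring)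
  · exact key wT (by decide +kernel) (by decide +kernel) (by rw [detT]; push_cast; rw [s3 e]; ring)
  · exact key wC (by decide +kernel) (by decide +kernel) (by rw [detC]; push_cast; rw [s4 e]; ring)
  · exact key wB (by decide +kernel) (by decide +kernel) (by rw [detB]; push_cast; rw [s6 e]; ring)

/-- The orders `8` and `12` isolate a prime. -/
theorem no_pair_large (hq : Fintype.card F = q) (hq2 : 2 ∣ q) {r s : ℕ} [Fact r.Prime] [Fact s.Prime] (hrs : r ≠ s)
    (hl : orderOf (q : ZMod s) = 8 ∨ orderOf (q : ZMod s) = 12)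
    (hk : r = 2 ∨ (r ≠ 2 ∧ orderOf (q : ZMod r) ≠ orderOf (q : ZMod s))) :
    ¬ ∃ x : ↥(chevF4.group F), orderOf x = r * s := by
  rintro ⟨x, hx⟩
  have hs : s.Prime := Fact.out
  have hr : r.Prime := Fact.out
  have hq1 : 1 < q := hq ▸ Fintype.one_lt_card
  set y := x ^ r with hy
  have hys : orderOf y = s := by
    rw [hy, orderOf_pow, hx, Nat.gcd_mul_right_left, Nat.mul_div_cancel_left _ hr.pos]
  obtain ⟨h, N, hh, hNv, hh12, hbad, hNr, hN2⟩ : ∃ h N : ℕ, orderOf (q : ZMod s) = h ∧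
      (Polynomial.cyclotomic h ℤ).eval (q : ℤ) = (N : ℤ) ∧ (h = 8 ∨ h = 12) ∧
      (∀ t : ℕ, t.Prime → t ∣ h → t ∣ N → ¬ t ^ 2 ∣ N) ∧
      (r ≠ 2 → r ∣ N → orderOf (q : ZMod r) = h) ∧ ¬ 2 ∣ N := by
    rcases hl with hl | hl
    · have hodd : ¬ 2 ∣ q ^ 4 + 1 := fun hd => by
        have := (Nat.dvd_add_right (dvd_pow hq2 (by norm_num))).1 hd
        omega
      refine ⟨8, q ^ 4 + 1, hl, by rw [eval_cyclotomic_eight]; push_cast; rfl, Or.inl rfl,
        fun t ht h8 htN => ?_, fun hr2 hd => ?_, hodd⟩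
      · exact absurd ((Nat.prime_dvd_prime_iff_eq ht Nat.prime_two).1 (ht.dvd_of_dvd_pow
          (show t ∣ 2 ^ 3 from h8)) ▸ htN) hodd
      · have h0 : (q : ZMod r) ^ 4 = -1 := eq_neg_of_add_eq_zero_left (by
          have := (ZMod.natCast_eq_zero_iff (q ^ 4 + 1) r).2 hd
          push_cast at this
          exact this)
        refine orderOf_eq_prime_pow (p := 2) (n := 2) ?_ (by linear_combination ((q : ZMod r) ^ 4 - 1) * h0)
        intro h4
        rw [show (2 : ℕ) ^ 2 = 4 by norm_num, h0] at h4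
        haveI := Fact.mk (lt_of_le_of_ne hr.two_le (Ne.symm hr2))
        exact ZMod.neg_one_ne_one (n := r) h4
    · have hle : q ^ 2 ≤ q ^ 4 := Nat.pow_le_pow_right (by omega) (by norm_num)
      have hc : ((q ^ 4 - q ^ 2 + 1 : ℕ) : ℤ) = (q : ℤ) ^ 4 - (q : ℤ) ^ 2 + 1 := by
        rw [Nat.cast_add, Nat.cast_sub hle]; push_cast; rfl
      have hcast : ∀ t : ℕ, t ∣ q ^ 4 - q ^ 2 + 1 → (q : ZMod t) ^ 4 - (q : ZMod t) ^ 2 + 1 = 0 := fun t ht => by
        have h0 : (((q ^ 4 - q ^ 2 + 1 : ℕ) : ℤ) : ZMod t) = 0 := by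
          rw [Int.cast_natCast, ZMod.natCast_eq_zero_iff]; exact ht
        rw [hc] at h0
        push_cast at h0
        exact h0
      have hodd : ¬ 2 ∣ q ^ 4 - q ^ 2 + 1 := fun hd => by
        have h0 := hcast 2 hd
        rw [(ZMod.natCast_eq_zero_iff q 2).2 hq2] at h0
        simp at h0
      have hthree : ¬ 3 ∣ q ^ 4 - q ^ 2 + 1 := fun hd => by
        have h0 := hcast 3 hd
        revert h0
        generalize (q : ZMod 3) = a
        revert a
        decide
      refine ⟨12, q ^ 4 - q ^ 2 + 1, hl, by rw [eval_twelve, hc], Or.inr rfl, fun t ht h12 htN => ?_,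
        fun hr2 hd => ?_, hodd⟩
      · rcases (ht.dvd_mul.1 (show t ∣ 2 ^ 2 * 3 from h12)) with h | h
        · exact absurd ((Nat.prime_dvd_prime_iff_eq ht Nat.prime_two).1 (ht.dvd_of_dvd_pow h) ▸ htN) hodd
        · exact absurd ((Nat.prime_dvd_prime_iff_eq ht Nat.prime_three).1 h ▸ htN) hthree
      · have h0 := hcast r hd
        have h6 : (q : ZMod r) ^ 6 = -1 := by linear_combination ((q : ZMod r) ^ 2 + 1) * h0
        have h12 : (q : ZMod r) ^ 12 = 1 := by linear_combination ((q : ZMod r) ^ 6 - 1) * h6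
        have hne : (-1 : ZMod r) ≠ 1 := by
          haveI := Fact.mk (lt_of_le_of_ne hr.two_le (Ne.symm hr2))
          exact ZMod.neg_one_ne_one
        rw [orderOf_eq_iff (by norm_num)]
        refine ⟨h12, fun m hm hm0 e => ?_⟩
        have hd' := orderOf_dvd_of_pow_eq_one e
        have hd12 := orderOf_dvd_of_pow_eq_one h12
        have hn6 : ¬ orderOf (q : ZMod r) ∣ 6 := fun h6' =>
          hne (h6.symm.trans (orderOf_dvd_iff_pow_eq_one.1 h6'))
        have hn4 : ¬ orderOf (q : ZMod r) ∣ 4 := fun h4' => by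
          have h4 : (q : ZMod r) ^ 4 = 1 := orderOf_dvd_iff_pow_eq_one.1 h4'
          have h2 : (q : ZMod r) ^ 2 = 2 := by linear_combination h4 - h0
          have h3 : ((3 : ℕ) : ZMod r) = 0 := by
            push_cast
            linear_combination h4 - ((q : ZMod r) ^ 2 + 2) * h2
          obtain rfl := (Nat.prime_dvd_prime_iff_eq hr Nat.prime_three).1 ((ZMod.natCast_eq_zero_iff 3 r).1 h3)
          exact hthree hd
        have hmle : orderOf (q : ZMod r) < 12 := lt_of_le_of_lt (Nat.le_of_dvd hm0 hd') hm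
        have hpos : 0 < orderOf (q : ZMod r) := Nat.pos_of_ne_zero fun h => by
          rw [h, zero_dvd_iff] at hd12; norm_num at hd12
        interval_cases orderOf (q : ZMod r) <;> revert hn6 hn4 hd12 <;> norm_num
  have hs12 : h ∣ s - 1 := hh ▸ ZMod.orderOf_dvd_card_sub_one fun h0 => by
    rw [h0, orderOf_zero] at hh; omega
  have hs6 : 8 < s := by
    have := Nat.le_of_dvd (by have := hs.two_le; omega) hs12
    omega
  have hsW : ¬ s ∣ [2, 6, 8, 12].prod := by
    rw [show [2, 6, 8, 12].prod = 2 ^ 7 * 3 ^ 2 by norm_num, hs.dvd_mul]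
    rintro (e | e) <;> have := Nat.le_of_dvd (by norm_num) (hs.dvd_of_dvd_pow e) <;> omega
  have hsh : ¬ s ∣ h := fun e => by
    have := Nat.le_of_dvd (by omega) e
    rcases hh12 with rfl | rfl
    · omega
    · rcases (hs.dvd_mul.1 (show s ∣ 3 * 4 from e)) with e | e <;> have := Nat.le_of_dvd (by norm_num) e <;> omega
  have hsN : s ∣ N := by
    rw [← ZMod.natCast_eq_zero_iff]
    have h1 := congrArg (Int.castRingHom (ZMod s)) hNv
    rw [← Polynomial.eval₂_hom, ← Polynomial.eval_map, Polynomial.map_cyclotomic, map_natCast, map_natCast] at h1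
    rw [← h1]
    exact Polynomial.IsRoot.eq_zero (IsPrimitiveRoot.isRoot_cyclotomic (by omega) (hh ▸ IsPrimitiveRoot.orderOf _))
  have hC := cyclic_centralizer mem_list topF4 unimodular_F4 LieTori.detF4' rfl LieTori.weylF4
    (h := h) (by simp; omega) (by omega) (by rcases hh12 with rfl | rfl <;> decide +kernel) hq
    (fun K _ _ => LieTori.orderF4 K) hNv
    (fun h0 => hN2 (h0 ▸ dvd_zero 2)) hbad s hsN (by omega) hsh hsW hys
  have hxC : x ^ s ∈ Subgroup.centralizer ({y} : Set ↥(chevF4.group F)) := by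
    rw [Subgroup.mem_centralizer_iff]
    rintro _ rfl
    exact (Commute.pow_pow_self x r s).eq
  have hxo : orderOf (x ^ s) = r := by
    rw [orderOf_pow, hx, Nat.gcd_mul_left_left, Nat.mul_div_cancel _ hs.pos]
  have hrN : r ∣ N := by
    rw [← hC.2, ← hxo, ← Subgroup.orderOf_mk _ hxC]
    exact orderOf_dvd_natCard _
  rcases hk with rfl | ⟨hr2, hk⟩
  · exact hN2 hrN
  · exact hk ((hNr hr2 hrN).trans hh.symm)

/-- The pairs of orders `(3, 6)`, `(4, 6)`, `(3, 4)`. -/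
theorem no_pair_small (hq : Fintype.card F = q) {r s : ℕ} [Fact r.Prime] [Fact s.Prime] (hr2 : r ≠ 2) (hs2 : s ≠ 2)
    {k l : ℕ} (hk : orderOf (q : ZMod r) = k) (hl : orderOf (q : ZMod s) = l)
    (h : (k = 3 ∧ l = 6) ∨ (k = 4 ∧ l = 6) ∨ (k = 3 ∧ l = 4)) :
    ¬ ∃ x : ↥(chevF4.group F), orderOf x = r * s := by
  rintro ⟨x, hx⟩
  have hs : s.Prime := Fact.out
  have hr : r.Prime := Fact.out
  have hbig : ∀ {t : ℕ} [Fact t.Prime], t ≠ 2 → (orderOf (q : ZMod t) = 3 ∨ orderOf (q : ZMod t) = 4 ∨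
      orderOf (q : ZMod t) = 6) → 3 < t := by
    intro t _ ht2 hto
    have h1 : orderOf (q : ZMod t) ∣ t - 1 := ZMod.orderOf_dvd_card_sub_one fun h0 => by
      rw [h0, orderOf_zero] at hto; omega
    have := (Fact.out : t.Prime).two_le
    have h2 := Nat.le_of_dvd (by omega) h1
    omega
  have hr3 : 3 < r := hbig hr2 (by omega)
  have hs3 : 3 < s := hbig hs2 (by omega)
  have hL : ∀ {t : ℕ}, t.Prime → 3 < t → ∀ e ∈ [2, 6, 8, 12], ¬ t ∣ e := by
    intro t ht ht3 e he hd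
    have h1 : t ∣ 2 ^ 3 * 3 := hd.trans (by fin_cases he <;> norm_num)
    rcases ht.dvd_mul.1 h1 with h | h
    · have := Nat.le_of_dvd (by norm_num) (ht.dvd_of_dvd_pow h); omega
    · have := Nat.le_of_dvd (by norm_num) h; omega
  have h12 : ∀ {t : ℕ} [Fact t.Prime], (orderOf (q : ZMod t) = 3 ∨ orderOf (q : ZMod t) = 4 ∨
      orderOf (q : ZMod t) = 6) → (q : ZMod t) ^ 12 = 1 := by
    intro t _ hto
    rw [← orderOf_dvd_iff_pow_eq_one]
    rcases hto with e | e | e <;> rw [e] <;> norm_num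
  obtain ⟨w, a, b, ha, ha0, hb, hb0⟩ := exists_word_pair mem_list unimodular_F4 LieTori.detF4' (L := [2, 6, 8, 12]) rfl
    hq (fun K _ _ => LieTori.orderF4 K) hr2 hs2 (hL hr hr3) (hL hs hs3) (h := 12) (by norm_num)
    (h12 (by omega)) (h12 (by omega)) (x ^ s) (x ^ r)
    (by rw [orderOf_pow, hx, Nat.gcd_mul_left_left, Nat.mul_div_cancel _ hs.pos])
    (by rw [orderOf_pow, hx, Nat.gcd_mul_right_left, Nat.mul_div_cancel_left _ hr.pos])
    (Commute.pow_pow_self x s r)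
  set P : Matrix (Fin 4) (Fin 4) ℤ := LieTori.wMat (l := 4) (cartanMat chevF4) w with hP
  have hdvd : ∀ {t : ℕ} [Fact t.Prime] {c : ℤ} {v : Fin 4 → ZMod t},
      v ∈ LieTori.eigMod P (q : ZMod t) → v ≠ 0 → (q : ZMod t) ^ 2 + (c : ZMod t) * q + 1 = 0 →
      (t : ℤ) ∣ (P * P + c • P + 1).det := by
    intro t _ c v hv hv0 hc
    let P' : Matrix (Fin 4) (Fin 4) (ZMod t) := P.map (Int.castRingHom (ZMod t))
    have h1 : v ᵥ* P' = (q : ZMod t) • v := by
      funext j
      rw [Pi.smul_apply, smul_eq_mul, ← (LieTori.mem_eigMod _ _ _).1 hv j]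
      simp only [Matrix.vecMul, dotProduct, P', Matrix.map_apply, eq_intCast]
      exact Finset.sum_congr rfl fun i _ => mul_comm _ _
    have h2 : v ᵥ* (P' * P' + (c : ZMod t) • P' + 1) = 0 := by
      rw [Matrix.vecMul_add, Matrix.vecMul_add, ← Matrix.vecMul_vecMul, h1, Matrix.smul_vecMul, h1,
        Matrix.vecMul_smul, h1, Matrix.vecMul_one]
      funext j
      simp only [Pi.add_apply, Pi.smul_apply, smul_eq_mul, Pi.zero_apply]
      linear_combination v j * hc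
    have h3 : (P' * P' + (c : ZMod t) • P' + 1).det = 0 := by
      by_contra hd
      exact hv0 (Matrix.eq_zero_of_vecMul_eq_zero hd h2)
    rw [← ZMod.intCast_zmod_eq_zero_iff_dvd, show (((P * P + c • P + 1).det : ℤ) : ZMod t) = _ from
      (Int.castRingHom (ZMod t)).map_det _]
    rw [← h3]
    congr 1
    rw [map_add, map_add, map_one, map_mul]
    refine congrArg₂ (· + ·) (congrArg₂ (· + ·) rfl (Matrix.ext fun i j => ?_)) rfl
    simp only [P', RingHom.mapMatrix_apply, Matrix.map_apply, Matrix.smul_apply, smul_eq_mul, eq_intCast, Int.cast_mul]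
  obtain ⟨-, -, r3, r4, -, -, -⟩ := sq_root hk
  obtain ⟨-, -, -, s4, s6, -, -⟩ := sq_root hl
  rcases h with ⟨e, e'⟩ | ⟨e, e'⟩ | ⟨e, e'⟩
  · exact F4W.not_singular_pair w hr hs hr3 hs3 (c := 1) (d := -1) (by simp) P hP
      (hdvd ha ha0 (by push_cast; linear_combination r3 e)) (hdvd hb hb0 (by push_cast; linear_combination s6 e'))
  · exact F4W.not_singular_pair w hr hs hr3 hs3 (c := 0) (d := -1) (by simp) P hP
      (hdvd ha ha0 (by push_cast; linear_combination r4 e)) (hdvd hb hb0 (by push_cast; linear_combination s6 e'))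
  · exact F4W.not_singular_pair w hr hs hr3 hs3 (c := 1) (d := 0) (by simp) P hP
      (hdvd ha ha0 (by push_cast; linear_combination r3 e)) (hdvd hb hb0 (by push_cast; linear_combination s4 e'))

end

end Cfsg.Agent.CycTori.F4Graph
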