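import Cfsg.Agent.Lang.Torus
import Mathlib.LinearAlgebra.Matrix.ToLinearEquiv

/-!
Elements of twisted maximal tori of a Chevalley group with prescribed prime order, and products with root
elements (owner: helper87).

An element of the group over the algebraic closure which is fixed by a Frobenius map twisted by a Weyl
representative is carried by Lang's theorem to a rational one.  For a torus element with roots of unity as
parameters, being fixed is a congruence on the exponents.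
-/

set_option autoImplicit false
set_option linter.style.haveILetI false

namespace Cfsg.Agent.CycTori

open Cfsg.Lie Cfsg.Agent.ChevGrp Matrix
open Cfsg.Agent.Lang (chr mact kap tauC)
open scoped MatrixGroups

variable {D : ChevalleyDatum}

/-- The action on torus parameters inverse transposed to a word. -/
def parMat (D : ChevalleyDatum) (w : List (Fin D.rank)) : Matrix (Fin D.rank) (Fin D.rank) ℤ :=
  (Lang.wMat D w.reverse)ᵀ

/-- The Cartan matrix is unimodular. -/
def Unimod (D : ChevalleyDatum) : Prop :=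
  ∃ B : Fin D.rank → Fin D.rank → ℤ, ∀ i j : Fin D.rank,
    ∑ l : Fin D.rank, D.cartan j (D.simple l) * B l i = if j = i then 1 else 0

theorem nW_mul_tauC {k : Type*} [Field k] {len : ℕ → ℕ} (hS : Rules D k) (hR : RootTable D len) (hU : Unimod D)
    (w : List (Fin D.rank)) (c : Fin D.rank → kˣ) :
    (glSys hS).nW w * tauC hS hR c = tauC hS hR (mact (parMat D w) c) * (glSys hS).nW w := by
  obtain ⟨d, hd⟩ := Lang.exists_tauC hS hR ((glSys hS).nW_conj_Hbar hS hR w (Lang.tauC_mem hS hR c))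
  have e : (glSys hS).nW w * tauC hS hR c = tauC hS hR d * (glSys hS).nW w := by rw [hd, inv_mul_cancel_right]
  suffices d * (mact (parMat D w) c)⁻¹ = 1 by rw [mul_inv_eq_one] at this; rw [e, this]
  have hmem : d * (mact (parMat D w) c)⁻¹ ∈ rootKer D k := by
    rw [Lang.mem_rootKer_iff]
    intro l
    obtain ⟨s, hs, hact⟩ := Lang.act_surj hR w (hR.simple_lt l l.2)
    rw [← hact, Lang.chr_mul, Lang.chr_inv, Lang.chr_of_conj hS hR w e hs, Lang.chr_mact, parMat,
      Matrix.vecMul_transpose, ← Lang.kap_act hR _ (hR.act_lt w hs), hR.act_reverse_act w hs, mul_inv_cancel]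
  rwa [Chev.FieldFix.rootKer_eq_bot hU, Subgroup.mem_bot] at hmem

theorem nW_conj_x_two {k : Type*} [Field k] [CharP k 2] {len : ℕ → ℕ} (hS : Rules D k) (hR : RootTable D len)
    (w : List (Fin D.rank)) {s : ℕ} (hs : s < D.nroots) (t : k) :
    (glSys hS).nW w * (glSys hS).x s t * ((glSys hS).nW w)⁻¹ = (glSys hS).x (act D w s) t := by
  induction w generalizing s with
  | nil => rw [(glSys hS).nW_nil, act_nil, one_mul, inv_one, mul_one]
  | cons i w ih =>
    rw [(glSys hS).nW_cons, _root_.mul_inv_rev, act_cons,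
      show ∀ a b c : GL D.Idx k, a * b * c * (b⁻¹ * a⁻¹) = a * (b * c * b⁻¹) * a⁻¹ from fun a b c => by group,
      ih hs]
    have h1 := (glSys hS).conj_all hS hR i ((glSys hS).nEl_mem_rankOne i 1) (Or.inr rfl)
      (fun r => (hS.eta i r : k)) (fun r hr x => (glSys hS).θ_nI_conj hS hR i hr x) _ (hR.act_lt w hs) t
    have h2 : (hS.eta i (act D w s) : k) = 1 := by
      rcases hS.eta_sq i (hR.act_lt w hs) with e | e <;> simp [e, CharTwo.neg_eq]
    rw [h2, one_mul, act_cons, act_nil] at h1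
    exact h1

section Twist

variable {F : Type*} [Field F] [Fintype F]

/-- An element fixed by the twisted Frobenius map has a rational element of the same order. -/
theorem exists_orderOf_of_twisted
    (hD : D ∈ [chevG2, chevB2, chevD4, chevF4, chevE6, chevE7, chevE8]) (hU : Unimod D)
    (hS : Rules D (AlgebraicClosure F)) {q : ℕ} (hq : Fintype.card F = q)
    (φ : AlgebraicClosure F →+* AlgebraicClosure F) (hφ : ∀ x, φ x = x ^ q) (w : List (Fin D.rank))
    {z : GL D.Idx (AlgebraicClosure F)} (hz : z ∈ D.group (AlgebraicClosure F))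
    (he : (glSys hS).nW w * Matrix.GeneralLinearGroup.map (n := D.Idx) φ z = z * (glSys hS).nW w) :
    ∃ g : ↥(D.group F), orderOf g = orderOf z := by
  classical
  have hF : Rules D F := Cfsg.Agent.Chev.rules_of_mem F hD
  obtain ⟨len, hR⟩ := hF.root
  obtain ⟨f, hfdef⟩ : ∃ f : F →+* AlgebraicClosure F, f = algebraMap F (AlgebraicClosure F) := ⟨_, rfl⟩
  have hq2 : 2 ≤ q := hq ▸ Fintype.one_lt_card
  have hfix : ∀ a, φ a = a → ∃ b, f b = a := by
    intro a ha
    rw [hφ] at ha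
    have hne : (Polynomial.X ^ q - Polynomial.X : Polynomial (AlgebraicClosure F)) ≠ 0 :=
      FiniteField.X_pow_card_sub_X_ne_zero _ (by omega)
    have hsub : Finset.univ.image f ⊆
        (Polynomial.X ^ q - Polynomial.X : Polynomial (AlgebraicClosure F)).roots.toFinset := by
      intro b hb
      obtain ⟨c, -, rfl⟩ := Finset.mem_image.1 hb
      rw [Multiset.mem_toFinset, Polynomial.mem_roots hne]
      simp [← map_pow, ← hq, FiniteField.pow_card]
    have hcard : (Polynomial.X ^ q - Polynomial.X : Polynomial (AlgebraicClosure F)).roots.toFinset.card ≤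
        (Finset.univ.image f).card := by
      rw [Finset.card_image_of_injective _ f.injective, Finset.card_univ, hq]
      refine (Multiset.toFinset_card_le _).trans ((Polynomial.card_roots' _).trans ?_)
      rw [FiniteField.X_pow_card_sub_X_natDegree_eq _ (by omega)]
    have hmem : a ∈ Finset.univ.image f := by
      rw [Finset.eq_of_subset_of_card_le hsub hcard, Multiset.mem_toFinset, Polynomial.mem_roots hne]
      simp [ha]
    obtain ⟨b, -, hb⟩ := Finset.mem_image.1 hmem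
    exact ⟨b, hb⟩
  have hnG : (glSys hS).nW w ∈ D.group (AlgebraicClosure F) := by
    rw [group_eq hS, (glSys hS).Gbar_eq hR hS]
    exact Subgroup.mem_sup_right ((glSys hS).nW_mem_Nbar w)
  obtain ⟨a, ha, han⟩ := Lang.exists_lang_chev hS hR φ q hq2 hφ hnG
  have hμa : Matrix.GeneralLinearGroup.map (n := D.Idx) φ a = a * (glSys hS).nW w := by
    rw [han, mul_inv_cancel_left]
  have hfix' : Matrix.GeneralLinearGroup.map (n := D.Idx) φ (a * z * a⁻¹) = a * z * a⁻¹ := by
    rw [map_mul, map_mul, map_inv, hμa, mul_assoc a, he]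
    simp [mul_assoc]
  obtain ⟨g, hg, e⟩ := Chev.FieldFix.fixed_mem_map hS hF hR hU φ f hfix
    (mul_mem (mul_mem ha hz) (inv_mem ha)) hfix'
  refine ⟨⟨g, hg⟩, ?_⟩
  rw [← Subgroup.orderOf_coe, ← orderOf_injective (Matrix.GeneralLinearGroup.map (n := D.Idx) f)
    (glMap_injective D f), e, ← MulAut.conj_apply, MulEquiv.orderOf_eq]

end Twist

section Vectors

variable {k : Type*} [Field k]

/-- The parameters `ζ ^ v` of a vector modulo the order of `ζ`. -/
def zpar {r : ℕ} (ζ : kˣ) (v : Fin D.rank → ZMod r) : Fin D.rank → kˣ := fun j => ζ ^ (v j).val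

theorem chr_zpar {r : ℕ} [NeZero r] {ζ : kˣ} (hζ : ζ ^ r = 1) (u : Fin D.rank → ℤ)
    (v : Fin D.rank → ZMod r) {a : ZMod r} (ha : ∑ j, (u j : ZMod r) * v j = a) :
    chr u (zpar ζ v) = ζ ^ a.val := by
  show ∏ j, (ζ ^ (v j).val) ^ u j = ζ ^ a.val
  have h1 : ∀ j, (ζ ^ (v j).val) ^ u j = ζ ^ (((v j).val : ℤ) * u j) := fun j => by
    rw [← zpow_natCast, ← _root_.zpow_mul]
  simp only [h1]
  rw [← Lang.zpow_sum_finset, ← zpow_natCast ζ a.val, zpow_eq_zpow_iff_modEq]
  refine Int.ModEq.of_dvd (Int.natCast_dvd_natCast.2 (orderOf_dvd_of_pow_eq_one hζ)) ?_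
  rw [← ZMod.intCast_eq_intCast_iff]
  push_cast
  simp only [ZMod.natCast_zmod_val]
  rw [← ha]
  exact Finset.sum_congr rfl fun j _ => mul_comm _ _

theorem zpar_twisted {r : ℕ} [NeZero r] {ζ : kˣ} (hζ : ζ ^ r = 1) {M : Matrix (Fin D.rank) (Fin D.rank) ℤ}
    {q : ℕ} {v : Fin D.rank → ZMod r}
    (hv : ((q : ℤ) • M).map (Int.cast : ℤ → ZMod r) *ᵥ v = v) :
    mact M (zpar ζ v ^ q) = zpar ζ v := by
  rw [Lang.mact_npow]
  funext i
  show chr (M i) (zpar ζ v) ^ q = ζ ^ (v i).val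
  rw [← zpow_natCast, ← Lang.chr_smul]
  refine chr_zpar hζ ((q : ℤ) • M i) v (Eq.trans ?_ (congrFun hv i))
  exact Finset.sum_congr rfl fun j _ => rfl

theorem exists_vec_of_det {r : ℕ} [Fact r.Prime] {M : Matrix (Fin D.rank) (Fin D.rank) ℤ} {q : ℕ}
    (h : ((((q : ℤ) • M - 1).det : ℤ) : ZMod r) = 0) :
    ∃ v : Fin D.rank → ZMod r, v ≠ 0 ∧ ((q : ℤ) • M).map (Int.cast : ℤ → ZMod r) *ᵥ v = v := by
  have h1 : ((((q : ℤ) • M - 1).map (Int.cast : ℤ → ZMod r))).det = 0 := by
    rw [← h]; exact ((Int.castRingHom (ZMod r)).map_det _).symm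
  obtain ⟨v, hv0, hv⟩ := Matrix.exists_mulVec_eq_zero_iff.2 h1
  refine ⟨v, hv0, ?_⟩
  rw [Matrix.map_sub _ Int.cast_sub, Matrix.map_one _ Int.cast_zero Int.cast_one, Matrix.sub_mulVec,
    Matrix.one_mulVec, sub_eq_zero] at hv
  exact hv

end Vectors

section Main

variable {F : Type*} [Field F] [Fintype F]

/-- The torus element with parameters of order `r` given by a vector modulo `r`. -/
theorem exists_torus_elem (hD : D ∈ [chevG2, chevB2, chevD4, chevF4, chevE6, chevE7, chevE8]) (hU : Unimod D)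
    (hS : Rules D (AlgebraicClosure F)) {len : ℕ → ℕ} (hR : RootTable D len) {q : ℕ} (hq : Fintype.card F = q)
    (φ : AlgebraicClosure F →+* AlgebraicClosure F) (hφ : ∀ x, φ x = x ^ q) (w : List (Fin D.rank))
    {r : ℕ} [Fact r.Prime] (hr : ¬ r ∣ q) {v : Fin D.rank → ZMod r} (hv0 : v ≠ 0)
    (hv : ((q : ℤ) • parMat D w).map (Int.cast : ℤ → ZMod r) *ᵥ v = v) :
    ∃ c : Fin D.rank → (AlgebraicClosure F)ˣ, orderOf (tauC hS hR c) = r ∧
      tauC hS hR c ∈ D.group (AlgebraicClosure F) ∧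
      (glSys hS).nW w * Matrix.GeneralLinearGroup.map (n := D.Idx) φ (tauC hS hR c) =
        tauC hS hR c * (glSys hS).nW w ∧
      ∀ u : Fin D.rank → ℤ, ∑ j, (u j : ZMod r) * v j = 0 → chr u c = 1 := by
  have hF : Rules D F := Cfsg.Agent.Chev.rules_of_mem F hD
  haveI : NeZero (r : AlgebraicClosure F) := ⟨fun h0 => by
    obtain ⟨p, hp⟩ := CharP.exists F
    haveI := Fact.mk (CharP.char_is_prime F p)
    obtain ⟨n, -, hn⟩ := FiniteField.card F p
    have h1 : (r : F) = 0 := (algebraMap F (AlgebraicClosure F)).injective (by rw [map_natCast, map_zero]; exact h0)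
    rw [CharP.cast_eq_zero_iff F p, Nat.prime_dvd_prime_iff_eq (Fact.out : p.Prime) Fact.out] at h1
    exact hr (h1 ▸ hq ▸ hn ▸ dvd_pow_self p n.2.ne')⟩
  obtain ⟨ζ₀, hζ₀⟩ := HasEnoughRootsOfUnity.exists_primitiveRoot (AlgebraicClosure F) r
  have hr0 : r ≠ 0 := (Fact.out : r.Prime).ne_zero
  obtain ⟨ζ, hζ⟩ : ∃ ζ : (AlgebraicClosure F)ˣ, IsPrimitiveRoot ζ r :=
    ⟨(hζ₀.isUnit hr0).unit, hζ₀.isUnit_unit hr0⟩
  refine ⟨zpar ζ v, ?_, ?_, ?_, fun u hu => ?_⟩
  · rw [orderOf_injective _ (Lang.tauC_injective hS hR hU)]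
    refine orderOf_eq_prime (funext fun j => ?_) fun h1 => hv0 (funext fun j => ?_)
    · show (ζ ^ (v j).val) ^ r = 1
      rw [pow_right_comm, hζ.pow_eq_one, one_pow]
    · have h2 : ζ ^ (v j).val = 1 := congrFun h1 j
      have h3 := hζ.pow_eq_one_iff_dvd (v j).val |>.1 h2
      exact (ZMod.val_eq_zero _).1 (Nat.eq_zero_of_dvd_of_lt h3 (ZMod.val_lt _))
  · rw [group_eq hS, (glSys hS).Gbar_eq hR hS]
    exact Subgroup.mem_sup_left ((glSys hS).Hbar_le_Bbar (Lang.tauC_mem hS hR _))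
  · have h1 : Matrix.GeneralLinearGroup.map (n := D.Idx) φ (tauC hS hR (zpar ζ v)) =
        tauC hS hR (zpar ζ v ^ q) := by
      rw [tauC, Chev.FieldFix.map_tau hS hS hR φ]
      congr 1
      funext i
      exact Units.ext (by simp [hφ])
    rw [h1, nW_mul_tauC hS hR hU, zpar_twisted hζ.pow_eq_one hv]
  · rw [chr_zpar hζ.pow_eq_one u v hu, ZMod.val_zero, pow_zero]

theorem exists_frobenius {q : ℕ} (hq : Fintype.card F = q) :
    ∃ φ : AlgebraicClosure F →+* AlgebraicClosure F, ∀ x, φ x = x ^ q :=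
  ⟨(FiniteField.frobeniusAlgHom F (AlgebraicClosure F)).toRingHom, fun x => by rw [← hq]; rfl⟩

/-- Two primes with an eigenvector for the same word have a product in the spectrum. -/
theorem exists_orderOf_mul (hD : D ∈ [chevG2, chevB2, chevD4, chevF4, chevE6, chevE7, chevE8]) (hU : Unimod D)
    {q : ℕ} (hq : Fintype.card F = q) (w : List (Fin D.rank)) {r s : ℕ} [Fact r.Prime] [Fact s.Prime]
    (hrs : r ≠ s) (hr : ¬ r ∣ q) (hs : ¬ s ∣ q)
    (hdr : ((((q : ℤ) • parMat D w - 1).det : ℤ) : ZMod r) = 0)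
    (hds : ((((q : ℤ) • parMat D w - 1).det : ℤ) : ZMod s) = 0) :
    ∃ x : ↥(D.group F), orderOf x = r * s := by
  have hS : Rules D (AlgebraicClosure F) := Cfsg.Agent.Chev.rules_of_mem _ hD
  obtain ⟨len, hR⟩ := hS.root
  obtain ⟨φ, hφ⟩ := exists_frobenius hq
  obtain ⟨a, ha0, ha⟩ := exists_vec_of_det hdr
  obtain ⟨b, hb0, hb⟩ := exists_vec_of_det hds
  obtain ⟨c, hc1, hc2, hc3, -⟩ := exists_torus_elem hD hU hS hR hq φ hφ w hr ha0 ha
  obtain ⟨d, hd1, hd2, hd3, -⟩ := exists_torus_elem hD hU hS hR hq φ hφ w hs hb0 hb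
  have hcomm : Commute (tauC hS hR c) (tauC hS hR d) := by
    rw [Commute, SemiconjBy, ← map_mul, ← map_mul, mul_comm]
  obtain ⟨g, hg⟩ := exists_orderOf_of_twisted hD hU hS hq φ hφ w (mul_mem hc2 hd2) (by
    rw [map_mul, ← mul_assoc, hc3, mul_assoc, hd3, mul_assoc])
  refine ⟨g, hg.trans ?_⟩
  rw [hcomm.orderOf_mul_eq_mul_orderOf_of_coprime
    (by rw [hc1, hd1]; exact (Nat.coprime_primes Fact.out Fact.out).2 hrs), hc1, hd1]

/-- A prime with an eigenvector killed by a root fixed by the word is joined to `2` in even characteristic. -/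
theorem exists_orderOf_two_mul (hD : D ∈ [chevG2, chevB2, chevD4, chevF4, chevE6, chevE7, chevE8])
    (hU : Unimod D) [CharP F 2] {q : ℕ} (hq : Fintype.card F = q) (w : List (Fin D.rank))
    {θ : ℕ} (hθ : θ < D.nroots) (hwθ : act D w θ = θ)
    {s : ℕ} [Fact s.Prime] (hs2 : s ≠ 2) (hs : ¬ s ∣ q)
    {v : Fin D.rank → ZMod s} (hv0 : v ≠ 0)
    (hv : ((q : ℤ) • parMat D w).map (Int.cast : ℤ → ZMod s) *ᵥ v = v)
    (hperp : ∑ j, ((kap D θ j : ℤ) : ZMod s) * v j = 0) :
    ∃ x : ↥(D.group F), orderOf x = 2 * s := by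
  have hS : Rules D (AlgebraicClosure F) := Cfsg.Agent.Chev.rules_of_mem _ hD
  obtain ⟨len, hR⟩ := hS.root
  obtain ⟨φ, hφ⟩ := exists_frobenius hq
  obtain ⟨c, hc1, hc2, hc3, hc4⟩ := exists_torus_elem hD hU hS hR hq φ hφ w hs hv0 hv
  haveI : CharP (AlgebraicClosure F) 2 :=
    charP_of_injective_ringHom (algebraMap F (AlgebraicClosure F)).injective 2
  let S := glSys hS
  let u : GL D.Idx (AlgebraicClosure F) := S.x θ 1
  have hu2 : u ^ 2 = 1 := by
    rw [pow_two, S.x_add θ hθ, CharTwo.add_self_eq_zero, S.x_zero hθ]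
  have hu1 : u ≠ 1 := fun h => by
    have hn := hR.neg_lt θ hθ
    change S.x θ 1 = 1 at h
    rw [← S.x_zero (r := D.neg θ) hn] at h
    exact hR.neg_ne hθ (S.x_root_inj hR hθ hn one_ne_zero h).symm
  have huo : orderOf u = 2 := orderOf_eq_prime hu2 hu1
  have hφu : Matrix.GeneralLinearGroup.map (n := D.Idx) φ u = u :=
    (Chev.FieldFix.map_xGL hS hS φ θ 1).trans (by rw [map_one]; rfl)
  have hnu : S.nW w * u = u * S.nW w := by
    have h2 := nW_conj_x_two hS hR w hθ (1 : AlgebraicClosure F)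
    rw [hwθ] at h2
    exact mul_inv_eq_iff_eq_mul.1 h2
  have hcu : Commute u (tauC hS hR c) := by
    have h1 := Lang.tauC_x hS hR hθ c (1 : AlgebraicClosure F)
    rw [hc4 (kap D θ) hperp, Units.val_one, one_mul] at h1
    exact h1.symm
  have huG : u ∈ D.group (AlgebraicClosure F) := by
    rw [group_eq hS]; exact S.x_mem_Gbar hθ _
  obtain ⟨g, hg⟩ := exists_orderOf_of_twisted hD hU hS hq φ hφ w (mul_mem huG hc2) (by
    rw [map_mul, hφu, ← mul_assoc, hnu, mul_assoc, hc3, mul_assoc])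
  refine ⟨g, hg.trans ?_⟩
  rw [hcu.orderOf_mul_eq_mul_orderOf_of_coprime
    (by rw [huo, hc1]; exact (Nat.coprime_primes Nat.prime_two Fact.out).2 (Ne.symm hs2)), huo, hc1]

end Main

end Cfsg.Agent.CycTori
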